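import Cfsg.Agent.Lib.CharDeg.U33Deg
import Cfsg.Agent.Lib.CharDeg.SL2Char
import Cfsg.Agent.Lib.Induce.TI
import Cfsg.Agent.Lib.Char.Galois

/-! A character induced from the point stabiliser of a doubly transitive group with fixed-point-free involutions. -/

set_option autoImplicit false

namespace Cfsg.Lib.E11

open Cfsg Subgroup Cfsg.Lib.Char Cfsg.Lib.Induce Finset

variable {G : Type*} [Group G] [Fintype G] {M : Subgroup G} {s : G} {n p : ℕ}

theorem hecke_dec (hc : ∀ g, g ∉ M → ∃ c ∈ M, ∃ v ∈ M, g = c * s * v) (hn : M.index = n + 1)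
    (hD : Nat.card M = n * Nat.card {b : M // s⁻¹ * b * s ∈ M}) (hM : ∀ x, x * s * x⁻¹ ∉ M) (lam : M →* ℂˣ)
    (hl : ∀ (b : M) (hb : s⁻¹ * b * s ∈ M), lam ⟨_, hb⟩ = lam b) : ∃ χ ψ, IsIrrCharacter G χ ∧ IsIrrCharacter G ψ ∧
      indFun M (fun b => (lam b : ℂ)) = χ + ψ ∧ charDegree χ + charDegree ψ = n + 1 ∧ χ s + ψ s = 0 ∧
      (∑ x, indFun M (fun b => (lam b : ℂ)) (x * s * x⁻¹ * s)) * (charDegree χ * charDegree ψ) =
        Nat.card G * χ s ^ 2 * (n + 1) := by
  classical
  have hθ := isCharacter_hom lam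
  obtain ⟨χ, ψ, h1, h2, -, e⟩ := GLTwo.exists_irr_add_of_inner_two (isCharacter_indFun M hθ) (by
    rw [CharDeg.U33.mackey_two hc hθ.isClassFunction hθ.isClassFunction, (isIrrCharacter_hom lam).inner_self,
      sum_congr rfl (g := fun b : M => if s⁻¹ * b * s ∈ M then 1 else 0) fun b _ => ?_, sum_boole, hn]
    · have := card_ne_zero_complex M
      rw [← Fintype.card_subtype, ← Nat.card_eq_fintype_card]
      field_simp
      rw [hD]
      push_cast
      ring
    split_ifs with h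
    · rw [extendByZero_of_mem _ _ h, hl b h, conj_hom_apply, ← Units.val_mul, ← map_mul]
      simp
    · rw [extendByZero_of_not_mem _ _ h, map_zero, mul_zero])
  have e1 : (charDegree χ + charDegree ψ : ℂ) = n + 1 := by
    have := congrFun e 1
    rw [indFun_one, hn, Pi.add_apply, h1.apply_one_eq, h2.apply_one_eq] at this
    simpa using this.symm
  have e2 : χ s + ψ s = 0 := (congrFun e s).symm.trans (indFun_eq_zero_of_not_conj _ _ _ hM)
  refine ⟨χ, ψ, h1, h2, e, by exact_mod_cast e1, e2, ?_⟩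
  have := h1.apply_one_ne_zero
  have := h2.apply_one_ne_zero
  simp only [e, Pi.add_apply, sum_add_distrib, h1.sum_conj_mul, h2.sum_conj_mul]
  rw [← e1, ← h1.apply_one_eq, ← h2.apply_one_eq, eq_neg_of_add_eq_zero_right e2]
  field_simp
  ring

theorem hecke (hs : s * s = 1) (hc : ∀ g, g ∉ M → ∃ c ∈ M, ∃ v ∈ M, g = c * s * v) (hn : M.index = n + 1)
    (hD : Nat.card M = n * Nat.card {b : M // s⁻¹ * b * s ∈ M}) (hM : ∀ x, x * s * x⁻¹ ∉ M)
    (perf : _root_.commutator G = ⊤) (lam : M →* ℂˣ) (h1 : lam ≠ 1)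
    (hl : ∀ (b : M) (hb : s⁻¹ * b * s ∈ M), lam ⟨_, hb⟩ = lam b)
    (hr : ∀ x y (h : y⁻¹ * (x * s * x⁻¹ * s) * y ∈ M), lam ⟨_, h⟩ = 1) (hp : p.Prime) (hpn : p ∣ n)
    (hq : ∀ q, q.Prime → q ∣ n → (Nat.card G).factorization q = n.factorization q ∧
      ∃ x ∈ M, p ∣ orderOf x ∧ q ∣ orderOf x ∧ ∀ y, y * x * y⁻¹ ∈ M → y ∈ M) : False := by
  classical
  obtain ⟨χ, ψ, i1, i2, e, e1, e2, e3⟩ := hecke_dec hc hn hD hM lam hl
  obtain ⟨χ', ψ', j1, j2, f, f1, f2, f3⟩ := hecke_dec hc hn hD hM 1 fun _ _ => rfl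
  have one : ∀ {χ ψ : G → ℂ}, IsIrrCharacter G χ → IsIrrCharacter G ψ → ∀ {l : M →* ℂˣ},
      indFun M (fun b => (l b : ℂ)) = χ + ψ → (l = 1 ↔ χ = (fun _ => 1) ∨ ψ = fun _ => 1) := fun i1 i2 l e => by
    have := classInner_indFun_one M fun b => (l b : ℂ)
    rw [e, classInner_add_left, i1.inner_eq_ite isIrrCharacter_one, i2.inner_eq_ite isIrrCharacter_one,
      (isIrrCharacter_hom l).inner_eq_ite isIrrCharacter_one] at this
    have e' : ((fun b => (l b : ℂ)) = fun _ => 1) ↔ l = 1 :=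
      ⟨fun e => MonoidHom.ext fun b => Units.ext (congrFun e b), by rintro rfl; rfl⟩
    rw [← e']
    split_ifs at this <;> simp_all
  have f4 : (charDegree χ' * charDegree ψ' : ℂ) = n ∧ χ' s ^ 2 = 1 := by
    rcases (one j1 j2 f).1 rfl with rfl | rfl
    · rw [charDegree_one] at f1 ⊢
      simp [show charDegree ψ' = n by omega]
    · rw [charDegree_one] at f1 ⊢
      simp [show charDegree χ' = n by omega, eq_neg_of_add_eq_zero_left f2]
  rw [f4.1, f4.2, sum_congr rfl (g := fun x => indFun M (fun b => (lam b : ℂ)) (x * s * x⁻¹ * s)) fun x _ => by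
    rw [indFun_apply, indFun_apply]
    congr 1
    refine sum_congr rfl fun y _ => ?_
    by_cases h : y⁻¹ * (x * s * x⁻¹ * s) * y ∈ M
    · rw [extendByZero_of_mem _ _ h, extendByZero_of_mem _ _ h, hr x y h]; rfl
    · rw [extendByZero_of_not_mem _ _ h, extendByZero_of_not_mem _ _ h]] at f3
  obtain ⟨a, ha⟩ := i1.isGeneralizedCharacter.exists_int_of_sq_eq_one (g := s) (by rw [pow_two, hs])
  have e4 : charDegree χ * charDegree ψ = a.natAbs ^ 2 * n := by
    have c1 := card_ne_zero_complex G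
    have c2 : (n + 1 : ℂ) ≠ 0 := by exact_mod_cast n.succ_ne_zero
    have : (charDegree χ * charDegree ψ : ℂ) = (a ^ 2 : ℤ) * n := mul_left_cancel₀ (mul_ne_zero c1 c2) (by
      push_cast
      linear_combination n * e3 - (charDegree χ * charDegree ψ) * f3 + Nat.card G * (n + 1) * n * (χ s + a) * ha)
    rw [← Int.natAbs_sq] at this
    exact_mod_cast this
  have dv : ∀ q, q.Prime → q ∣ n → q ^ n.factorization q ∣ charDegree χ ∨ q ^ n.factorization q ∣ charDegree ψ :=
    fun q h1 h2 => by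
      have e5 : q ^ n.factorization q ∣ charDegree χ * charDegree ψ := e4 ▸ (Nat.ordProj_dvd n q).mul_left _
      by_cases h : q ∣ charDegree χ
      · exact .inl ((Nat.Coprime.pow_left _ (h1.coprime_iff_not_dvd.2 fun h' => h1.not_dvd_one
          ((Nat.dvd_add_right h2).1 (e1 ▸ dvd_add h h')))).dvd_of_dvd_mul_right e5)
      · exact .inr ((Nat.Coprime.pow_left _ (h1.coprime_iff_not_dvd.2 h)).dvd_of_dvd_mul_left e5)
  have key : ∀ {χ ψ : G → ℂ}, IsIrrCharacter G χ → IsIrrCharacter G ψ → indFun M (fun b => (lam b : ℂ)) = χ + ψ →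
      charDegree χ + charDegree ψ = n + 1 → (∀ q, q.Prime → q ∣ n → q ^ n.factorization q ∣ charDegree χ ∨
        q ^ n.factorization q ∣ charDegree ψ) → ¬ p ^ n.factorization p ∣ charDegree χ := fun {χ ψ} i1 i2 e e1 dv h => by
    have d : n ∣ charDegree χ := (Nat.dvd_iff_prime_pow_dvd_dvd _ _).2 fun q k h2 h3 => by
      rcases k with _ | k
      · simp
      have h4 := (dvd_pow_self q k.succ_ne_zero).trans h3
      obtain ⟨h5, x, hx, x1, x2, x3⟩ := hq q h2 h4
      have n0 : n ≠ 0 := by rintro rfl; exact Nat.card_pos.ne' (hD.trans (zero_mul _))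
      refine (pow_dvd_pow q ((h2.pow_dvd_iff_le_factorization n0).1 h3)).trans ((dv q h2 h4).resolve_right fun h' => ?_)
      have := (congrFun e x).symm.trans (indFun_apply_eq_of_forall M (isCharacter_hom lam).isClassFunction ⟨x, hx⟩
        fun y hy h => (hy (x3 y h)).elim)
      rw [Pi.add_apply, i1.apply_eq_zero_of_defect_zero hp (by rwa [(hq p hp hpn).1]) x1,
        i2.apply_eq_zero_of_defect_zero h2 (by rwa [h5]) x2, add_zero] at this
      exact Units.ne_zero _ this.symm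
    have := Nat.le_of_dvd i1.charDegree_pos d
    have := i2.charDegree_pos
    obtain ⟨l, rfl⟩ := i2.isCharacter.exists_hom_of_apply_one (by
      rw [i2.apply_one_eq, show charDegree ψ = 1 by omega, Nat.cast_one])
    refine h1 ((one i1 i2 e).2 (.inr (funext fun g => ?_)))
    rw [show l g = 1 from Abelianization.commutator_subset_ker l (perf ▸ mem_top g), Units.val_one]
  exact (dv p hp hpn).elim (key i1 i2 e e1 dv) (key i2 i1 (e.trans (add_comm ..)) (by omega) fun q h h' =>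
    (dv q h h').symm)

end Cfsg.Lib.E11
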